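import Cfsg.Agent.H6.SmallOrder
import Mathlib.GroupTheory.Perm.Sign
import Mathlib.GroupTheory.SpecificGroups.Alternating

/-!
# Perfect groups preserving an anisotropic pair of quadratic forms over the field of two elements
-/

set_option autoImplicit false

namespace Cfsg.Agent.H49.Aniso

/-- A perfect group has no nontrivial map to a solvable group. -/
theorem perfect_hom_eq_one {E M : Type*} [Group E] [Group M] (hperf : commutator E = ⊤)
    (f : E →* M) (hsol : Group.IsSolvable f.range) (e : E) : f e = 1 := by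
  by_contra hne
  have : Nontrivial f.range := ⟨⟨f e, e, rfl⟩, 1, fun h => hne (congrArg Subtype.val h)⟩
  refine (Group.IsSolvable.commutator_lt_top_of_nontrivial f.range).ne ?_
  rw [commutator_def, ← Subgroup.map_top_of_surjective f.rangeRestrict f.rangeRestrict_surjective,
    ← Subgroup.map_commutator, ← commutator_def, hperf]

/-- A perfect group acts trivially on a set of at most four points. -/
theorem perfect_perm_trivial {E X : Type*} [Group E] [Finite X] (hperf : commutator E = ⊤)
    (hX : Nat.card X ≤ 4) (f : E →* Equiv.Perm X) (e : E) : f e = 1 := by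
  refine perfect_hom_eq_one hperf f (H6.isSolvable_of_card_lt_sixty ?_) e
  calc Nat.card f.range ≤ Nat.card (Equiv.Perm X) := Subgroup.card_le_card_group _
    _ = (Nat.card X).factorial := Nat.card_perm
    _ < 60 := (Nat.factorial_le hX).trans_lt (by decide)

/-- A perfect group moving one of five points induces every even permutation. -/
theorem perfect_perm_five {E X : Type*} [Group E] [Fintype X] [DecidableEq X]
    (hperf : commutator E = ⊤) (hX : Fintype.card X = 5) (f : E →* Equiv.Perm X)
    (hf : ∃ e, f e ≠ 1) (σ : Equiv.Perm X) (hσ : Equiv.Perm.sign σ = 1) : ∃ e, f e = σ := by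
  have hle : f.range ≤ alternatingGroup X := by
    rintro _ ⟨e, rfl⟩
    rw [Equiv.Perm.mem_alternatingGroup]
    exact perfect_hom_eq_one hperf (Equiv.Perm.sign.comp f) inferInstance e
  have : Nontrivial X := Fintype.one_lt_card_iff_nontrivial.1 (by omega)
  have hA : Nat.card (alternatingGroup X) = 60 := by
    have h := two_mul_nat_card_alternatingGroup (α := X)
    rw [Nat.card_perm, show Nat.card X = 5 by rw [Nat.card_eq_fintype_card, hX],
      show Nat.factorial 5 = 120 from rfl] at h
    omega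
  have h60 : 60 ≤ Nat.card f.range := by
    by_contra hlt
    obtain ⟨e, he⟩ := hf
    exact he (perfect_hom_eq_one hperf f (H6.isSolvable_of_card_lt_sixty (by omega)) e)
  have heq : f.range = alternatingGroup X :=
    Subgroup.eq_of_le_of_card_ge hle (by omega)
  have hmem : σ ∈ f.range := by
    rw [heq, Equiv.Perm.mem_alternatingGroup]
    exact hσ
  exact hmem

section Quadratic

/-- The value group. -/
abbrev U : Type := ZMod 2 × ZMod 2

/-- The sign of an element of the field of two elements. -/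
def sgn (a : ZMod 2) : ℤ := if a = 0 then 1 else -1

theorem sgn_add (a b : ZMod 2) : sgn (a + b) = sgn a * sgn b := by
  revert a b; decide

theorem sgn_mul_self (a : ZMod 2) : sgn a * sgn a = 1 := by
  revert a; decide

theorem sum_sgn (u : U) :
    1 + sgn u.1 + sgn u.2 + sgn (u.1 + u.2) = if u = 0 then 4 else 0 := by
  revert u; decide

theorem U_add_self (u : U) : u + u = 0 := by
  revert u; decide

set_option synthInstance.maxSize 4096 in
theorem U_cases : ∀ a c u : U, a ≠ 0 → c ≠ 0 → a + c ≠ 0 →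
    u = 0 ∨ u = a ∨ u = c ∨ u = a + c := by
  decide

theorem sq_dvd {S : ℤ} (h : (32 : ℤ) ∣ S * S) : (8 : ℤ) ∣ S := by
  have key : ∀ r : ZMod 32, r * r = 0 → r.val % 8 = 0 := by decide
  have h0 : ((S : ZMod 32)) * (S : ZMod 32) = 0 := by
    rw [← Int.cast_mul, ZMod.intCast_zmod_eq_zero_iff_dvd]
    exact_mod_cast h
  have h1 := key _ h0
  have h2 : ((S : ZMod 32).val : ℤ) = S % 32 := ZMod.val_intCast S
  omega

variable {W : Type*} [AddCommGroup W] (h2 : ∀ w : W, w + w = 0) (q : W → U) (b : W → W → U)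
  (hqb : ∀ x y, q (x + y) = q x + q y + b x y) (hb : ∀ x y z, b x (y + z) = b x y + b x z)

include hqb in
theorem b_comm (x y : W) : b x y = b y x := by
  have h := hqb x y
  rw [add_comm x y, hqb y x, add_comm (q y)] at h
  exact (add_left_cancel h).symm

include hb in
theorem b_zero (x : W) : b x 0 = 0 := by
  have h := hb x 0 0
  rw [add_zero] at h
  exact left_eq_add.1 h

include hqb hb in
theorem b_left (x y z : W) : b (x + y) z = b x z + b y z := by
  rw [b_comm q b hqb (x + y) z, hb, b_comm q b hqb z x, b_comm q b hqb z y]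

include hqb hb in
theorem char_sum_sq [Fintype W] (f : U →+ ZMod 2) :
    (Fintype.card W : ℤ) ∣ (∑ w, sgn (f (q w))) * (∑ w, sgn (f (q w))) := by
  have h1 : (∑ w, sgn (f (q w))) * (∑ w, sgn (f (q w))) =
      ∑ d, sgn (f (q d)) * ∑ x, sgn (f (b x d)) := by
    rw [Finset.sum_mul]
    calc ∑ x, sgn (f (q x)) * ∑ w, sgn (f (q w))
        = ∑ x, sgn (f (q x)) * ∑ d, sgn (f (q (x + d))) := by
          refine Finset.sum_congr rfl fun x _ => ?_
          rw [← Equiv.sum_comp (Equiv.addLeft x) (fun w => sgn (f (q w)))]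
          rfl
      _ = ∑ x, ∑ d, sgn (f (q d)) * sgn (f (b x d)) := by
          refine Finset.sum_congr rfl fun x _ => ?_
          rw [Finset.mul_sum]
          refine Finset.sum_congr rfl fun d _ => ?_
          rw [hqb, map_add, map_add, sgn_add, sgn_add]
          linear_combination (sgn (f (q d)) * sgn (f (b x d))) * sgn_mul_self (f (q x))
      _ = _ := by
          rw [Finset.sum_comm]
          exact Finset.sum_congr rfl fun d _ => (Finset.mul_sum _ _ _).symm
  rw [h1]
  refine Finset.dvd_sum fun d _ => Dvd.dvd.mul_left ?_ _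
  by_cases hd : ∀ x, f (b x d) = 0
  · simp [hd, sgn]
  · push Not at hd
    obtain ⟨x₀, hx₀⟩ := hd
    have hx1 : f (b x₀ d) = 1 := by
      revert hx₀
      generalize f (b x₀ d) = a
      revert a; decide
    have h : ∑ x, sgn (f (b x d)) = -∑ x, sgn (f (b x d)) := by
      conv_lhs => rw [← Equiv.sum_comp (Equiv.addLeft x₀) (fun w => sgn (f (b w d)))]
      rw [← Finset.sum_neg_distrib]
      refine Finset.sum_congr rfl fun x _ => ?_
      show sgn (f (b (x₀ + x) d)) = _
      rw [b_left q b hqb hb, map_add, sgn_add, hx1]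
      show (-1 : ℤ) * sgn _ = _
      ring
    rw [show ∑ x, sgn (f (b x d)) = 0 by omega]
    exact dvd_zero _

variable (hq0 : ∀ w, q w = 0 → w = 0)

include h2 hqb hb hq0 in
theorem card_le_sixteen [Finite W] : Nat.card W ≤ 16 := by
  classical
  have := Fintype.ofFinite W
  by_contra hlt
  obtain ⟨n, hn⟩ : ∃ n, Nat.card W = 2 ^ n := by
    have hp : IsPGroup 2 (Multiplicative W) := fun g => ⟨1, by
      rw [pow_one, sq]; exact congrArg Multiplicative.ofAdd (h2 (Multiplicative.toAdd g))⟩
    obtain ⟨n, hn⟩ := (IsPGroup.iff_card (p := 2)).1 hp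
    exact ⟨n, (Nat.card_congr Multiplicative.ofAdd).trans hn⟩
  have hn5 : 5 ≤ n := by
    by_contra h
    have : 2 ^ n ≤ 2 ^ 4 := Nat.pow_le_pow_right (by omega) (by omega)
    omega
  have hN : (32 : ℤ) ∣ (Fintype.card W : ℤ) := by
    have h32 : 2 ^ 5 ∣ Fintype.card W := by
      rw [← Nat.card_eq_fintype_card, hn]
      exact pow_dvd_pow 2 hn5
    norm_num at h32
    exact_mod_cast h32
  have h8 : ∀ f : U →+ ZMod 2, (8 : ℤ) ∣ ∑ w, sgn (f (q w)) := fun f =>
    sq_dvd (hN.trans (char_sum_sq q b hqb hb f))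
  have hsum : ∑ w : W, (1 + sgn (q w).1 + sgn (q w).2 + sgn ((q w).1 + (q w).2)) = 4 := by
    simp_rw [sum_sgn]
    have hq00 : q 0 = 0 := by
      have h := hqb 0 0
      rw [add_zero, b_zero b hb, add_zero] at h
      exact left_eq_add.1 h
    rw [Finset.sum_eq_single 0]
    · rw [if_pos hq00]
    · exact fun w _ hw => if_neg fun h => hw (hq0 w h)
    · simp
  rw [Finset.sum_add_distrib, Finset.sum_add_distrib, Finset.sum_add_distrib] at hsum
  have e1 := h8 (AddMonoidHom.fst _ _)
  have e2 := h8 (AddMonoidHom.snd _ _)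
  have e3 := h8 (AddMonoidHom.fst _ _ + AddMonoidHom.snd _ _)
  simp only [AddMonoidHom.coe_fst, AddMonoidHom.coe_snd, AddMonoidHom.add_apply] at e1 e2 e3
  simp only [Finset.sum_const, Finset.card_univ, nsmul_eq_mul, mul_one] at hsum
  omega

include hb in
theorem exists_orth [Finite W] (h16 : 16 ≤ Nat.card W) (x : W) :
    ∃ y, y ≠ 0 ∧ y ≠ x ∧ b x y = 0 := by
  classical
  have := Fintype.ofFinite W
  obtain ⟨u, -, hu⟩ := Finset.exists_lt_card_fiber_of_mul_lt_card_of_maps_to
    (s := Finset.univ) (t := (Finset.univ : Finset U)) (f := fun y => b x y) (n := 3)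
    (fun _ _ => Finset.mem_univ _) (by simpa [Finset.card_univ, ← Nat.card_eq_fintype_card] using
      (show 4 * 3 < Nat.card W by omega))
  obtain ⟨y₀, hy₀⟩ := Finset.card_pos.1 (by omega : 0 < ({y ∈ Finset.univ | b x y = u} : Finset W).card)
  have hy₀' : b x y₀ = u := by simpa using hy₀
  set s := ({y ∈ Finset.univ | b x y = u} : Finset W).image (fun y => y + y₀) with hs
  have hcard : 3 < s.card := by
    rw [hs, Finset.card_image_of_injective _ (fun a c h => add_right_cancel h)]
    exact hu
  obtain ⟨y, hy, hyx⟩ := Finset.exists_mem_notMem_of_card_lt_card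
    (s := ({0, x} : Finset W)) (t := s) (lt_of_le_of_lt Finset.card_le_two (by omega))
  rw [Finset.mem_insert, Finset.mem_singleton, not_or] at hyx
  refine ⟨y, hyx.1, hyx.2, ?_⟩
  rw [hs, Finset.mem_image] at hy
  obtain ⟨z, hz, rfl⟩ := hy
  rw [hb, hy₀', show b x z = u by simpa using hz, U_add_self]

include h2 hqb hb hq0 in
theorem surjective_of_sixteen [Finite W] (h16 : 16 ≤ Nat.card W) (u : U) : ∃ w, q w = u := by
  classical
  have : Nontrivial W := Finite.one_lt_card_iff_nontrivial.1 (by omega)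
  obtain ⟨x, hx⟩ := exists_ne (0 : W)
  obtain ⟨y, hy0, hyx, hbxy⟩ := exists_orth b hb h16 x
  have hxy : x + y ≠ 0 := fun h => hyx (by
    have : y = -x := eq_neg_of_add_eq_zero_right h
    rw [this, neg_eq_of_add_eq_zero_left (h2 x)])
  have hq00 : q 0 = 0 := by
    have h := hqb 0 0
    rw [add_zero, b_zero b hb, add_zero] at h
    exact left_eq_add.1 h
  rcases U_cases (q x) (q y) u (fun h => hx (hq0 x h)) (fun h => hy0 (hq0 y h))
    (fun h => hxy (hq0 _ (by rw [hqb, hbxy, add_zero, h]))) with rfl | rfl | rfl | rfl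
  · exact ⟨0, hq00⟩
  · exact ⟨x, rfl⟩
  · exact ⟨y, rfl⟩
  · exact ⟨x + y, by rw [hqb, hbxy, add_zero]⟩

include h2 hqb hb hq0 in
theorem two_values [Finite W] (h8 : 8 ≤ Nat.card W) (u : U) :
    ∃ w, w ≠ 0 ∧ q w ≠ u := by
  classical
  have := Fintype.ofFinite W
  by_contra h
  push Not at h
  rw [Nat.card_eq_fintype_card] at h8
  obtain ⟨x, -, hx⟩ := Finset.exists_mem_notMem_of_card_lt_card
    (s := ({0} : Finset W)) (t := Finset.univ) (by simp [Finset.card_univ]; omega)
  rw [Finset.mem_singleton] at hx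
  obtain ⟨y, -, hy⟩ := Finset.exists_mem_notMem_of_card_lt_card
    (s := ({0, x} : Finset W)) (t := Finset.univ)
    (lt_of_le_of_lt Finset.card_le_two (by simp [Finset.card_univ]; omega))
  simp only [Finset.mem_insert, Finset.mem_singleton, not_or] at hy
  obtain ⟨z, -, hz⟩ := Finset.exists_mem_notMem_of_card_lt_card
    (s := ({0, x, y, x + y} : Finset W)) (t := Finset.univ)
    (lt_of_le_of_lt Finset.card_le_four (by simp [Finset.card_univ]; omega))
  simp only [Finset.mem_insert, Finset.mem_singleton, not_or] at hz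
  have hneg : ∀ w : W, -w = w := fun w => neg_eq_of_add_eq_zero_left (h2 w)
  have key : ∀ w, w ≠ 0 → w ≠ x → b x w = u := by
    intro w hw hwx
    have hxw : x + w ≠ 0 := fun e => hwx (by rw [eq_neg_of_add_eq_zero_right e, hneg])
    have e := hqb x w
    rw [h x hx, h w hw, h _ hxw, U_add_self, zero_add] at e
    exact e.symm
  have hyz0 : y + z ≠ 0 := fun e => hz.2.2.1 (by rw [eq_neg_of_add_eq_zero_right e, hneg])
  have hyzx : y + z ≠ x := fun e => hz.2.2.2 (by
    rw [← e, add_comm y z, add_assoc, h2, add_zero])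
  have e := hb x y z
  rw [key y hy.1 hy.2, key z hz.1 hz.2.1, key _ hyz0 hyzx, U_add_self] at e
  exact hx (hq0 x (by rw [h x hx, e]))

variable {E : Type*} [Group E] (ρ : E →* Equiv.Perm W)
  (hρ : ∀ e x y, ρ e (x + y) = ρ e x + ρ e y) (hρq : ∀ e w, q (ρ e w) = q w)

/-- The action on a fiber of `q`. -/
def fiberHom (u : U) : E →* Equiv.Perm {w : W // q w = u} where
  toFun e := (ρ e).subtypePerm (fun w => by rw [hρq])
  map_one' := by ext w; simp
  map_mul' e e' := by ext w; simp only [map_mul, Equiv.Perm.coe_mul, Function.comp_apply, Equiv.Perm.subtypePerm_apply]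

include h2 hqb hb hq0 hρ hρq in
/-- A perfect group preserving an anisotropic quadratic map to a four-group and fixing no nonzero
vector forces the space to be zero. -/
theorem eq_zero_of_perfect [Finite W] (hperf : commutator E = ⊤)
    (hfix : ∀ w, (∀ e, ρ e w = w) → w = 0) (w : W) : w = 0 := by
  classical
  have := Fintype.ofFinite W
  by_contra hw
  have hneg : ∀ v : W, -v = v := fun v => neg_eq_of_add_eq_zero_left (h2 v)
  have h8 : 8 ≤ Nat.card W := by
    obtain ⟨n, hn⟩ : ∃ n, Nat.card W = 2 ^ n := by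
      have hp : IsPGroup 2 (Multiplicative W) := fun g => ⟨1, by
        rw [pow_one, sq]; exact congrArg Multiplicative.ofAdd (h2 (Multiplicative.toAdd g))⟩
      obtain ⟨n, hn⟩ := (IsPGroup.iff_card (p := 2)).1 hp
      exact ⟨n, (Nat.card_congr Multiplicative.ofAdd).trans hn⟩
    by_contra h
    have h4 : Nat.card W ≤ 4 := by
      have : n < 3 := by
        by_contra h3
        have : 2 ^ 3 ≤ 2 ^ n := Nat.pow_le_pow_right (by omega) (by omega)
        omega
      interval_cases n <;> omega
    exact hw (hfix w fun e => by rw [perfect_perm_trivial hperf h4 ρ e]; rfl)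
  have hcard : ∀ u : U, u ≠ 0 → ∀ v, q v = u → 5 ≤ Nat.card {w : W // q w = u} := by
    intro u hu v hv
    by_contra h
    have h0 : v = 0 := hfix v fun e => by
      have := perfect_perm_trivial hperf (by omega : Nat.card {w : W // q w = u} ≤ 4)
        (fiberHom q ρ hρq u) e
      exact congrArg Subtype.val (Equiv.Perm.congr_fun this ⟨v, hv⟩)
    subst h0
    have h := hqb 0 0
    rw [add_zero, b_zero b hb, add_zero] at h
    exact hu (hv.symm.trans (left_eq_add.1 h))
  have hsum : ∑ u : U, Nat.card {w : W // q w = u} = Nat.card W := by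
    rw [← Nat.card_sigma]
    exact Nat.card_congr (Equiv.sigmaFiberEquiv q)
  have hzero : 1 ≤ Nat.card {w : W // q w = 0} := by
    have h := hqb 0 0
    rw [add_zero, b_zero b hb, add_zero] at h
    have : Nonempty {w : W // q w = 0} := ⟨⟨0, left_eq_add.1 h⟩⟩
    exact Nat.card_pos
  have huniv : (Finset.univ : Finset U) = {(0, 0), (1, 0), (0, 1), (1, 1)} := by decide
  rw [huniv] at hsum
  rw [Finset.sum_insert (by decide), Finset.sum_insert (by decide), Finset.sum_insert (by decide),
    Finset.sum_singleton] at hsum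
  change 1 ≤ Nat.card {w : W // q w = (0, 0)} at hzero
  have hle := card_le_sixteen h2 q b hqb hb hq0
  have h16 : 16 ≤ Nat.card W := by
    by_contra hlt
    obtain ⟨x, hx, -⟩ := two_values h2 q b hqb hb hq0 h8 0
    obtain ⟨y, hy, hyx⟩ := two_values h2 q b hqb hb hq0 h8 (q x)
    have h5x := hcard _ (fun h => hx (hq0 x h)) x rfl
    have h5y := hcard _ (fun h => hy (hq0 y h)) y rfl
    obtain ⟨n, hn⟩ : ∃ n, Nat.card W = 2 ^ n := by
      have hp : IsPGroup 2 (Multiplicative W) := fun g => ⟨1, by
        rw [pow_one, sq]; exact congrArg Multiplicative.ofAdd (h2 (Multiplicative.toAdd g))⟩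
      obtain ⟨n, hn⟩ := (IsPGroup.iff_card (p := 2)).1 hp
      exact ⟨n, (Nat.card_congr Multiplicative.ofAdd).trans hn⟩
    have hn3 : n = 3 := by
      rcases Nat.lt_trichotomy n 3 with h | h | h
      · have : 2 ^ n ≤ 2 ^ 2 := Nat.pow_le_pow_right (by omega) (by omega)
        omega
      · exact h
      · have : 2 ^ 4 ≤ 2 ^ n := Nat.pow_le_pow_right (by omega) (by omega)
        omega
    subst hn3
    have key : ∀ a c : U, a ≠ 0 → c ≠ 0 → c ≠ a →
        (a = (1, 0) ∨ a = (0, 1) ∨ a = (1, 1)) ∧ (c = (1, 0) ∨ c = (0, 1) ∨ c = (1, 1)) := by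
      decide
    obtain ⟨hA, hC⟩ := key (q x) (q y) (fun h => hx (hq0 x h)) (fun h => hy (hq0 y h)) hyx
    rcases hA with a1 | a1 | a1 <;> rcases hC with c1 | c1 | c1 <;> rw [a1] at h5x hyx <;>
      rw [c1] at h5y hyx <;> first | exact hyx rfl | omega
  -- sixteen: three classes of five
  have hne : ∀ u : U, u ≠ 0 → 5 ≤ Nat.card {w : W // q w = u} := fun u hu => by
    obtain ⟨v, hv⟩ := surjective_of_sixteen h2 q b hqb hb hq0 h16 u
    exact hcard u hu v hv
  have g1 := hne (1, 0) (by decide)
  have g2 := hne (0, 1) (by decide)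
  have g3 := hne (1, 1) (by decide)
  have hfive : Fintype.card {w : W // q w = (1, 0)} = 5 := by
    have e16 : Nat.card W = 16 := le_antisymm hle h16
    rw [← Nat.card_eq_fintype_card]; omega
  set Z := {w : W // q w = (1, 0)}
  set f : E →* Equiv.Perm Z := fiberHom q ρ hρq (1, 0)
  let z : Fin 5 ≃ Z := (Fintype.equivFinOfCardEq hfive).symm
  have hz0 : ∀ i, (z i).1 ≠ 0 := fun i h => by
    have h1 := (z i).2
    rw [h] at h1
    have h' := hqb 0 0
    rw [add_zero, b_zero b hb, add_zero, left_eq_add, h1] at h'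
    exact absurd h' (by decide)
  have hf : ∃ e, f e ≠ 1 := by
    by_contra h
    push Not at h
    exact hz0 0 (hfix _ fun e => congrArg Subtype.val (Equiv.Perm.congr_fun (h e) (z 0)))
  have hreal : ∀ σ : Equiv.Perm (Fin 5), Equiv.Perm.sign σ = 1 →
      ∃ e, ∀ i, ρ e (z i).1 = (z (σ i)).1 := by
    intro σ hσ
    obtain ⟨e, he⟩ := perfect_perm_five hperf hfive f hf (z.permCongr σ)
      (by rw [Equiv.Perm.sign_permCongr]; exact hσ)
    exact ⟨e, fun i => by
      have := congrArg Subtype.val (Equiv.Perm.congr_fun he (z i))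
      simpa [f, fiberHom, Equiv.permCongr_apply] using this⟩
  -- the five sum to zero
  have hs : ∑ i, (z i).1 = 0 := hfix _ fun e => by
    let A : W →+ W := AddMonoidHom.mk' (ρ e) (hρ e)
    show A _ = _
    rw [map_sum, ← Equiv.sum_comp (z.symm.permCongr (f e)) (fun i => (z i).1)]
    exact Finset.sum_congr rfl fun i _ => by
      simp [A, f, fiberHom, Equiv.permCongr_apply]
      rfl
  -- all pairs have the same value of the polar form
  have hinv : ∀ e x y, b (ρ e x) (ρ e y) = b x y := fun e x y => by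
    have h := hqb (ρ e x) (ρ e y)
    rw [← hρ, hρq, hρq, hρq, hqb] at h
    exact (add_left_cancel h).symm
  have hadj : ∀ a i j : Fin 5, i ≠ a → j ≠ a → b (z a).1 (z i).1 = b (z a).1 (z j).1 := by
    intro a i j hi hj
    by_cases hij : i = j
    · rw [hij]
    have key : ∀ a i j : Fin 5, i ≠ a → j ≠ a → i ≠ j → ∃ k l : Fin 5, k ≠ l ∧ k ≠ a ∧ k ≠ i ∧
        k ≠ j ∧ l ≠ a ∧ l ≠ i ∧ l ≠ j := by decide
    obtain ⟨k, l, hkl, ka, ki, kj, la, li, lj⟩ := key a i j hi hj hij
    obtain ⟨e, he⟩ := hreal (Equiv.swap i j * Equiv.swap k l) (by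
      rw [Equiv.Perm.sign_mul, Equiv.Perm.sign_swap hij, Equiv.Perm.sign_swap hkl]; decide)
    have ea : (Equiv.swap i j * Equiv.swap k l) a = a := by
      rw [Equiv.Perm.mul_apply, Equiv.swap_apply_of_ne_of_ne ka.symm la.symm,
        Equiv.swap_apply_of_ne_of_ne hi.symm hj.symm]
    have ei : (Equiv.swap i j * Equiv.swap k l) i = j := by
      rw [Equiv.Perm.mul_apply, Equiv.swap_apply_of_ne_of_ne ki.symm li.symm,
        Equiv.swap_apply_left]
    rw [← hinv e (z a).1 (z i).1, he, he, ea, ei]
  have hcom : ∀ i j : Fin 5, b (z i).1 (z j).1 = b (z j).1 (z i).1 := fun i j =>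
    b_comm q b hqb _ _
  set c := b (z 0).1 (z 1).1 with hc
  have h0 : ∀ j : Fin 5, j ≠ 0 → b (z 0).1 (z j).1 = c := fun j hj =>
    (hadj 0 1 j (by decide) hj).symm
  have hpair : ∀ i j : Fin 5, i ≠ j → b (z i).1 (z j).1 = c := by
    intro i j hij
    by_cases hi : i = 0
    · subst hi; exact h0 j (Ne.symm hij)
    · rw [hadj i j 0 (Ne.symm hij) (Ne.symm hi), hcom, h0 i hi]
  -- three of them against the other two
  have hval : ∀ i, q (z i).1 = (1, 0) := fun i => (z i).2
  have h01 : q ((z 0).1 + (z 1).1 + (z 2).1) = (1, 0) + c := by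
    rw [hqb, hqb, b_left q b hqb hb, hval, hval, hval, hpair 0 1 (by decide),
      hpair 0 2 (by decide), hpair 1 2 (by decide), U_add_self, U_add_self]
    abel
  have h34 : q ((z 3).1 + (z 4).1) = c := by
    rw [hqb, hval, hval, U_add_self, zero_add, hpair 3 4 (by decide)]
  have heq : (z 0).1 + (z 1).1 + (z 2).1 = (z 3).1 + (z 4).1 := by
    have h := hs
    rw [Fin.sum_univ_five, add_assoc ((z 0).1 + (z 1).1 + (z 2).1)] at h
    rw [eq_neg_of_add_eq_zero_left h, hneg]
  rw [heq, h34] at h01
  exact absurd (right_eq_add.1 h01) (by decide)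

end Quadratic

end Cfsg.Agent.H49.Aniso
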